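import Mathlib.Algebra.Group.Subgroup.Pointwise
import Mathlib.GroupTheory.Solvable
import Cfsg.Agent.Cores.Fitting
import Cfsg.Agent.S0007
import Cfsg.Agent.Char.Burnside

/-!
Solvability from factorisations: three solvable subgroups, Hall's converse, permuting Sylow
subgroups.
-/

namespace Cfsg.Agent.Solvable

open Subgroup
open scoped Pointwise

universe u

theorem solvable_of_factorisation_aux : ∀ (n : ℕ) (G : Type u) [Group G] [Finite G],
    Nat.card G ≤ n → ∀ H₁ H₂ H₃ : Subgroup G,
      Group.IsSolvable H₁ → Group.IsSolvable H₂ → Group.IsSolvable H₃ →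
      (∀ g : G, ∃ x ∈ H₁, ∃ y ∈ H₂, g = x * y) → (∀ g : G, ∃ x ∈ H₁, ∃ y ∈ H₃, g = x * y) →
      H₂.index.Coprime H₃.index → Group.IsSolvable G := by
  intro n
  induction n with
  | zero =>
    intro G _ _ h
    exact absurd h (Nat.not_le_of_gt Nat.card_pos)
  | succ n ih =>
    intro G _ _ hn H₁ H₂ H₃ h₁ h₂ h₃ h12 h13 hcop
    rcases eq_or_ne H₁ ⊥ with hbot | hne
    · have : H₂ = ⊤ := by
        refine eq_top_iff.2 fun g _ => ?_
        obtain ⟨x, hx, y, hy, rfl⟩ := h12 g
        rw [hbot, Subgroup.mem_bot] at hx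
        rwa [hx, one_mul]
      subst this
      exact Group.isSolvable_of_surjective (f := (⊤ : Subgroup G).subtype)
        (fun g => ⟨⟨g, Subgroup.mem_top g⟩, rfl⟩)
    · have : Nontrivial H₁ := (Subgroup.nontrivial_iff_ne_bot H₁).2 hne
      obtain ⟨q, hq, hqne⟩ := Cores.exists_pCore_ne_bot (G := H₁)
      have : Fact q.Prime := ⟨hq⟩
      set M := (Cfsg.pCore q H₁).map H₁.subtype with hMdef
      have hMne : M ≠ ⊥ := by
        rw [Ne, hMdef, Subgroup.map_eq_bot_iff_of_injective _ H₁.subtype_injective]
        exact hqne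
      have hMp : IsPGroup q M := Cores.pCore_isPGroup.map _
      have hMn : ∀ x ∈ H₁, ∀ m ∈ M, x * m * x⁻¹ ∈ M := by
        rintro x hx m ⟨m', hm', rfl⟩
        exact ⟨⟨x, hx⟩ * m' * ⟨x, hx⟩⁻¹,
          (inferInstance : (Cfsg.pCore q H₁).Normal).conj_mem m' hm' _, rfl⟩
      have main : ∀ A : Subgroup G, Group.IsSolvable A → (∀ g : G, ∃ x ∈ H₁, ∃ y ∈ A, g = x * y) →
          ¬ q ∣ A.index → ∃ K : Subgroup G, K.Normal ∧ K ≠ ⊥ ∧ K ≤ A := by
        intro A _ hA hqA
        have hMA : M ≤ A := by
          obtain ⟨P, hP⟩ := hMp.exists_le_sylow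
          obtain ⟨Q₀⟩ := (inferInstance : Nonempty (Sylow q A))
          have hQ : IsPGroup q ((Q₀ : Subgroup A).map A.subtype) := Q₀.2.map _
          have hQd : ¬ q ∣ ((Q₀ : Subgroup A).map A.subtype).index := by
            rw [Subgroup.index_map_subtype]
            intro hd
            rcases hq.dvd_mul.1 hd with h | h
            · exact Q₀.not_dvd_index h
            · exact hqA h
          obtain ⟨g, hg⟩ := MulAction.exists_smul_eq G (hQ.toSylow hQd) P
          obtain ⟨x, hx, y, hy, rfl⟩ := hA g
          intro m hm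
          have h1 : x * m * x⁻¹ ∈ P := hP (hMn x hx m hm)
          rw [← hg, SetLike.mem_coe.symm] at h1
          obtain ⟨z, ⟨w, -, rfl⟩, hz⟩ := h1
          have h2 : x * y * (w : G) * (x * y)⁻¹ = x * m * x⁻¹ := hz
          have h3 : m = y * (w : G) * y⁻¹ := by
            have := congrArg (fun t => x⁻¹ * t * x) h2
            simpa [mul_assoc] using this.symm
          rw [h3]
          exact mul_mem (mul_mem hy w.2) (inv_mem hy)
        refine ⟨Subgroup.normalClosure (M : Set G), inferInstance, ?_, ?_⟩
        · exact fun h => hMne (eq_bot_iff.2 (h ▸ Subgroup.subset_normalClosure))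
        · refine (Subgroup.closure_le A).2 fun g hg => ?_
          obtain ⟨m, hm, hc⟩ := Group.mem_conjugatesOfSet_iff.1 hg
          obtain ⟨c, rfl⟩ := isConj_iff.1 hc
          obtain ⟨x, hx, y, hy, hxy⟩ := hA c⁻¹
          have hc' : c = y⁻¹ * x⁻¹ := by rw [← mul_inv_rev, ← hxy, inv_inv]
          have h1 := hMA (hMn x⁻¹ (inv_mem hx) m hm)
          have h2 := mul_mem (mul_mem (inv_mem hy) h1) hy
          subst hc'
          simpa [mul_assoc] using h2
      obtain ⟨K, hK, hKne, hKs⟩ : ∃ K : Subgroup G, K.Normal ∧ K ≠ ⊥ ∧ Group.IsSolvable K := by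
        by_cases hd : q ∣ H₂.index
        · obtain ⟨K, hK, hKne, hle⟩ := main H₃ h₃ h13
            fun h => hq.ne_one (Nat.eq_one_of_dvd_coprimes hcop hd h)
          exact ⟨K, hK, hKne, Group.isSolvable_of_isSolvable_injective
            (f := Subgroup.inclusion hle) (Subgroup.inclusion_injective hle)⟩
        · obtain ⟨K, hK, hKne, hle⟩ := main H₂ h₂ h12 hd
          exact ⟨K, hK, hKne, Group.isSolvable_of_isSolvable_injective
            (f := Subgroup.inclusion hle) (Subgroup.inclusion_injective hle)⟩
      set f := QuotientGroup.mk' K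
      have hsurj : Function.Surjective f := QuotientGroup.mk'_surjective K
      have hlt : Nat.card (G ⧸ K) < Nat.card G := by
        have h1 := K.card_mul_index
        have h2 : 1 < Nat.card K := (Subgroup.one_lt_card_iff_ne_bot K).2 hKne
        have h3 : 0 < Nat.card (G ⧸ K) := Nat.card_pos
        rw [Subgroup.index] at h1
        nlinarith
      have hq' : Group.IsSolvable (G ⧸ K) := by
        refine ih (G ⧸ K) (by omega) (H₁.map f) (H₂.map f) (H₃.map f)
          (Group.isSolvable_of_surjective (f.subgroupMap_surjective H₁))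
          (Group.isSolvable_of_surjective (f.subgroupMap_surjective H₂))
          (Group.isSolvable_of_surjective (f.subgroupMap_surjective H₃)) ?_ ?_
          ((hcop.coprime_dvd_left (H₂.index_map_dvd hsurj)).coprime_dvd_right
            (H₃.index_map_dvd hsurj))
        · intro g
          obtain ⟨g, rfl⟩ := hsurj g
          obtain ⟨x, hx, y, hy, rfl⟩ := h12 g
          exact ⟨f x, ⟨x, hx, rfl⟩, f y, ⟨y, hy, rfl⟩, map_mul f x y⟩
        · intro g
          obtain ⟨g, rfl⟩ := hsurj g
          obtain ⟨x, hx, y, hy, rfl⟩ := h13 g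
          exact ⟨f x, ⟨x, hx, rfl⟩, f y, ⟨y, hy, rfl⟩, map_mul f x y⟩
      exact Group.isSolvable_of_ker_le_range K.subtype f (by simp [f])

/-- A group factorised as `H₁H₂` and `H₁H₃` by solvable subgroups, the indices of `H₂`, `H₃`
coprime, is solvable. -/
theorem solvable_of_factorisation {G : Type u} [Group G] [Finite G] (H₁ H₂ H₃ : Subgroup G)
    (h₁ : Group.IsSolvable H₁) (h₂ : Group.IsSolvable H₂) (h₃ : Group.IsSolvable H₃)
    (h12 : ∀ g : G, ∃ x ∈ H₁, ∃ y ∈ H₂, g = x * y)
    (h13 : ∀ g : G, ∃ x ∈ H₁, ∃ y ∈ H₃, g = x * y) (hcop : H₂.index.Coprime H₃.index) :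
    Group.IsSolvable G :=
  solvable_of_factorisation_aux _ G le_rfl H₁ H₂ H₃ h₁ h₂ h₃ h12 h13 hcop

theorem solvable_of_complements_aux : ∀ (n : ℕ) (G : Type u) [Group G] [Finite G],
    Nat.card G ≤ n →
      (∀ p : ℕ, p.Prime → ∃ H : Subgroup G, H.index = p ^ (Nat.card G).factorization p) →
      Group.IsSolvable G := by
  intro n
  induction n with
  | zero =>
    intro G _ _ h
    exact absurd h (Nat.not_le_of_gt Nat.card_pos)
  | succ n ih =>
    intro G _ _ hn h
    set S := (Nat.card G).primeFactors with hS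
    by_cases hsmall : ∃ p q : ℕ, p.Prime ∧ q.Prime ∧ ∀ r ∈ S, r = p ∨ r = q
    · obtain ⟨p, q, hp, hq, hpq⟩ := hsmall
      exact Cfsg.Agent.Char.solvable_of_card_eq_pow_mul_pow p q hp hq _ rfl
        fun r hr hd => hpq r (Nat.mem_primeFactors.2 ⟨hr, hd, Nat.card_pos.ne'⟩)
    push Not at hsmall
    obtain ⟨a, ha, -, -⟩ := hsmall 2 2 Nat.prime_two Nat.prime_two
    have hap := Nat.prime_of_mem_primeFactors ha
    obtain ⟨b, hb, hba, -⟩ := hsmall a a hap hap
    have hbp := Nat.prime_of_mem_primeFactors hb
    obtain ⟨c, hc, hca, hcb⟩ := hsmall a b hap hbp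
    have hcp := Nat.prime_of_mem_primeFactors hc
    choose H hH using h
    have hcop : ∀ p q (hp : p.Prime) (hq : q.Prime), p ≠ q →
        (H p hp).index.Coprime (H q hq).index := fun p q hp hq hne => by
      rw [hH, hH]
      exact Nat.coprime_pow_primes _ _ hp hq hne
    have hfac : ∀ p (hp : p.Prime) (r : ℕ), (Nat.card (H p hp)).factorization r +
        (p ^ (Nat.card G).factorization p).factorization r = (Nat.card G).factorization r := by
      intro p hp r
      rw [← Finsupp.add_apply, ← Nat.factorization_mul Nat.card_pos.ne' (pow_ne_zero _ hp.ne_zero),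
        ← hH p hp, (H p hp).card_mul_index]
    have hsol : ∀ p (hp : p.Prime), p ∈ S → Group.IsSolvable (H p hp) := by
      intro p hp hpS
      have hd := (Nat.mem_primeFactors.1 hpS).2.1
      have hlt : Nat.card (H p hp) < Nat.card G := by
        have h1 := (H p hp).card_mul_index
        have h2 : 1 < (H p hp).index := by
          rw [hH]
          exact Nat.one_lt_pow (Nat.pos_iff_ne_zero.1
            (hp.factorization_pos_of_dvd Nat.card_pos.ne' hd)) hp.one_lt
        have h3 : 0 < Nat.card (H p hp) := Nat.card_pos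
        nlinarith
      refine ih (H p hp) (by omega) fun r hr => ?_
      by_cases hrp : r = p
      · subst hrp
        refine ⟨⊤, ?_⟩
        have h1 : (Nat.card (H r hp)).factorization r = 0 := by
          have h2 := hfac r hp r
          rw [hp.factorization_pow, Finsupp.single_eq_same] at h2
          omega
        rw [Subgroup.index_top, h1, pow_zero]
      · refine ⟨(H r hr).subgroupOf (H p hp), ?_⟩
        have h7 := (Cfsg.Agent.S0007.result (H p hp) (H r hr) (hcop p r hp hr (Ne.symm hrp))).1
        have h8 : (H r hr).relIndex (H p hp) * (H p hp).index =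
            (H p hp ⊓ H r hr).index := by
          rw [← Subgroup.relIndex_mul_index (inf_le_left : H p hp ⊓ H r hr ≤ H p hp),
            Subgroup.inf_relIndex_left]
        have h9 : (H r hr).relIndex (H p hp) = (H r hr).index := by
          rw [h7, mul_comm (H p hp).index] at h8
          exact Nat.eq_of_mul_eq_mul_right (Nat.pos_of_ne_zero Subgroup.index_ne_zero_of_finite) h8
        change (H r hr).relIndex (H p hp) = _
        rw [h9, hH]
        congr 1
        have h2 := hfac p hp r
        rw [hp.factorization_pow, Finsupp.single_eq_of_ne hrp] at h2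
        omega
    exact solvable_of_factorisation (H a hap) (H b hbp) (H c hcp) (hsol a hap ha) (hsol b hbp hb)
      (hsol c hcp hc) (Cfsg.Agent.S0007.result _ _ (hcop a b hap hbp (Ne.symm hba))).2
      (Cfsg.Agent.S0007.result _ _ (hcop a c hap hcp (Ne.symm hca))).2
      (hcop b c hbp hcp (Ne.symm hcb))

/-- Converse of Hall's theorem. -/
theorem solvable_of_complements {G : Type u} [Group G] [Finite G]
    (h : ∀ p : ℕ, p.Prime → ∃ H : Subgroup G, H.index = p ^ (Nat.card G).factorization p) :
    Group.IsSolvable G :=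
  solvable_of_complements_aux _ G le_rfl h

theorem coe_sup_of_permute {G : Type u} [Group G] {A B : Subgroup G}
    (h : (A : Set G) * (B : Set G) = (B : Set G) * (A : Set G)) :
    ((A ⊔ B : Subgroup G) : Set G) = (A : Set G) * (B : Set G) := by
  let C : Subgroup G :=
    { carrier := (A : Set G) * (B : Set G)
      one_mem' := ⟨1, one_mem A, 1, one_mem B, one_mul 1⟩
      mul_mem' := by
        intro x y hx hy
        have hmm : x * y ∈ (A : Set G) * B * ((A : Set G) * B) := Set.mul_mem_mul hx hy
        rwa [mul_assoc (A : Set G), ← mul_assoc (B : Set G), ← h, mul_assoc (A : Set G) (B : Set G),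
          ← mul_assoc (A : Set G) (A : Set G), coe_mul_coe, coe_mul_coe] at hmm
      inv_mem' := by
        rintro x ⟨a, ha, b, hb, rfl⟩
        show (a * b)⁻¹ ∈ (A : Set G) * (B : Set G)
        rw [h, mul_inv_rev]
        exact Set.mul_mem_mul (inv_mem hb) (inv_mem ha) }
  refine Set.Subset.antisymm (show A ⊔ B ≤ C from sup_le
    (fun a ha => ⟨a, ha, 1, one_mem B, mul_one a⟩) (fun b hb => ⟨1, one_mem A, b, hb, one_mul b⟩))
    (Set.mul_subset_iff.2 fun a ha b hb => mul_mem (mem_sup_left ha) (mem_sup_right hb))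

theorem card_sup_of_permute {G : Type u} [Group G] [Finite G] {A B : Subgroup G}
    (h : (A : Set G) * (B : Set G) = (B : Set G) * (A : Set G))
    (hcop : (Nat.card A).Coprime (Nat.card B)) :
    Nat.card ↥(A ⊔ B) = Nat.card A * Nat.card B := by
  rw [← Nat.card_prod]
  have hinj : Function.Injective (fun x : A × B => ((x.1 : G) * x.2)) :=
    Subgroup.mul_injective_of_disjoint (Subgroup.disjoint_of_coprime_natCard hcop)
  rw [← Nat.card_range_of_injective hinj]
  refine Nat.card_congr (Equiv.setCongr ?_)
  rw [coe_sup_of_permute h]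
  ext g
  constructor
  · rintro ⟨a, ha, b, hb, rfl⟩
    exact ⟨(⟨a, ha⟩, ⟨b, hb⟩), rfl⟩
  · rintro ⟨⟨a, b⟩, rfl⟩
    exact Set.mul_mem_mul a.2 b.2

/-- A finite group with pairwise permuting Sylow subgroups, one for each prime, is solvable. -/
theorem solvable_of_sylowSystem {G : Type u} [Group G] [Finite G]
    (S : (p : Nat.Primes) → Sylow (p : ℕ) G)
    (hS : ∀ p q : Nat.Primes, (S p : Set G) * (S q : Set G) = (S q : Set G) * (S p : Set G)) :
    Group.IsSolvable G := by
  classical
  have hfact : ∀ q : Nat.Primes, Fact (q : ℕ).Prime := fun q => ⟨q.2⟩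
  let T : Finset Nat.Primes → Subgroup G := fun s => s.sup fun q => (S q : Subgroup G)
  have key : ∀ s : Finset Nat.Primes,
      Nat.card (T s) = ∏ q ∈ s, (q : ℕ) ^ (Nat.card G).factorization q ∧
      ∀ r, (T s : Set G) * (S r : Set G) = (S r : Set G) * (T s : Set G) := by
    intro s
    induction s using Finset.induction with
    | empty =>
      refine ⟨by simp [T], fun r => ?_⟩
      have : T ∅ = ⊥ := Finset.sup_empty
      rw [this, Subgroup.coe_bot, Set.singleton_one, one_mul, mul_one]
    | @insert a s ha ih =>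
      obtain ⟨hc, hperm⟩ := ih
      have hins : T (insert a s) = T s ⊔ (S a : Subgroup G) := by
        simp only [T, Finset.sup_insert, sup_comm]
      have hc2 : Nat.card (S a : Subgroup G) = (a : ℕ) ^ (Nat.card G).factorization a :=
        (S a).card_eq_multiplicity
      have hcop : (Nat.card (T s)).Coprime (Nat.card (S a : Subgroup G)) := by
        rw [hc, hc2]
        exact Nat.Coprime.prod_left fun q hq =>
          Nat.coprime_pow_primes _ _ q.2 a.2 fun h => ha (Subtype.ext h ▸ hq)
      refine ⟨?_, fun r => ?_⟩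
      · rw [hins, card_sup_of_permute (hperm a) hcop, hc, hc2, Finset.prod_insert ha, mul_comm]
      · rw [hins, coe_sup_of_permute (hperm a)]
        rw [mul_assoc, show ((S a : Subgroup G) : Set G) * (S r : Set G) =
          (S r : Set G) * ((S a : Subgroup G) : Set G) from hS a r, ← mul_assoc, hperm r, mul_assoc]
  refine solvable_of_complements fun p hp => ?_
  let p' : Nat.Primes := ⟨p, hp⟩
  let U : Finset Nat.Primes := ((Nat.card G).primeFactors.subtype Nat.Prime).map
    (Function.Embedding.refl _)
  refine ⟨T (U.erase p'), ?_⟩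
  have hU : ∀ q : Nat.Primes, (q : ℕ) ∣ Nat.card G → q ∈ U := fun q hd =>
    Finset.mem_map.2 ⟨q, Finset.mem_subtype.2
      (Nat.mem_primeFactors.2 ⟨q.2, hd, Nat.card_pos.ne'⟩), rfl⟩
  have hle : T U ≤ T (U.erase p') ⊔ (S p' : Subgroup G) := by
    refine Finset.sup_le fun q hq => ?_
    by_cases hqp : q = p'
    · subst hqp; exact le_sup_right
    · exact le_sup_of_le_left (Finset.le_sup (f := fun q => (S q : Subgroup G))
        (Finset.mem_erase.2 ⟨hqp, hq⟩))
  have htop : T (U.erase p') ⊔ (S p' : Subgroup G) = ⊤ := by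
    refine Cores.eq_top_of_forall_sylow_le _ fun r hr => ⟨S ⟨r, hr⟩, ?_⟩
    by_cases hd : r ∣ Nat.card G
    · exact (Finset.le_sup (f := fun q => (S q : Subgroup G)) (hU ⟨r, hr⟩ hd)).trans hle
    · have : ((S ⟨r, hr⟩ : Subgroup G)) = ⊥ := by
        apply Subgroup.eq_bot_of_card_eq
        have := hfact ⟨r, hr⟩
        rw [(S ⟨r, hr⟩).card_eq_multiplicity]
        simp [Nat.factorization_eq_zero_of_not_dvd hd]
      exact this.le.trans bot_le
  have hcp : Nat.card (S p' : Subgroup G) = p ^ (Nat.card G).factorization p :=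
    (S p').card_eq_multiplicity
  have hc := card_sup_of_permute ((key (U.erase p')).2 p') (by
    rw [(key _).1, hcp]
    exact Nat.Coprime.prod_left fun q hq =>
      Nat.coprime_pow_primes _ _ q.2 hp fun h => (Finset.mem_erase.1 hq).1 (Subtype.ext h))
  rw [htop, Subgroup.card_top, hcp] at hc
  have h1 := (T (U.erase p')).card_mul_index
  rw [hc] at h1
  exact Nat.eq_of_mul_eq_mul_left Nat.card_pos h1

end Cfsg.Agent.Solvable
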